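import Mathlib

/-!
The determinant on the centraliser of a semisimple element of a finite unitary group.
-/

set_option autoImplicit false
set_option maxHeartbeats 800000

namespace CfsgLib.UnitarySemiCount

variable {K : Type*} [Field K] {V : Type*} [AddCommGroup V] [Module K V]

theorem det_one_add_comp_comm {U : Type*} [AddCommGroup U] [Module K U] [FiniteDimensional K V] [FiniteDimensional K U]
    (f : U →ₗ[K] V) (g : V →ₗ[K] U) :
    LinearMap.det (LinearMap.id + f ∘ₗ g) = LinearMap.det (LinearMap.id + g ∘ₗ f) := by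
  classical
  let bV := Module.finBasis K V
  let bU := Module.finBasis K U
  rw [← LinearMap.det_toMatrix bV, ← LinearMap.det_toMatrix bU, map_add, map_add, LinearMap.toMatrix_id,
    LinearMap.toMatrix_id, LinearMap.toMatrix_comp bV bU bV, LinearMap.toMatrix_comp bU bV bU,
    Matrix.det_one_add_mul_comm]

/-- Hermitian forms. -/
structure Herm (θ : K →+* K) (V : Type*) [AddCommGroup V] [Module K V] where
  /-- the form -/
  form : V → V → K
  add_left : ∀ u v w, form (u + v) w = form u w + form v w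
  smul_left : ∀ (a : K) u w, form (a • u) w = a * form u w
  symm : ∀ u v, θ (form u v) = form v u
  nondeg : ∀ u, (∀ v, form u v = 0) → u = 0

variable {θ : K →+* K} (H : Herm θ V)

local notation "⟪" u ", " v "⟫" => Herm.form H u v

theorem Herm.zero_left (w : V) : ⟪0, w⟫ = 0 := by
  have := H.smul_left 0 0 w
  rwa [zero_smul, zero_mul] at this

theorem Herm.add_right (u v w : V) : ⟪u, v + w⟫ = ⟪u, v⟫ + ⟪u, w⟫ := by
  rw [← H.symm (v + w) u, H.add_left, map_add, H.symm, H.symm]

theorem Herm.smul_right (a : K) (u v : V) : ⟪u, a • v⟫ = θ a * ⟪u, v⟫ := by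
  rw [← H.symm (a • v) u, H.smul_left, map_mul, H.symm]

theorem Herm.zero_right (w : V) : ⟪w, 0⟫ = 0 := by rw [← H.symm 0 w, H.zero_left, map_zero]

theorem Herm.sub_left (u v w : V) : ⟪u - v, w⟫ = ⟪u, w⟫ - ⟪v, w⟫ := by
  rw [eq_sub_iff_add_eq, ← H.add_left, sub_add_cancel]

theorem Herm.sub_right (u v w : V) : ⟪u, v - w⟫ = ⟪u, v⟫ - ⟪u, w⟫ := by
  rw [eq_sub_iff_add_eq, ← H.add_right, sub_add_cancel]

theorem Herm.sum_right {ι : Type*} (s : Finset ι) (f : ι → V) (u : V) : ⟪u, ∑ i ∈ s, f i⟫ = ∑ i ∈ s, ⟪u, f i⟫ := by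
  classical
  induction s using Finset.induction_on with
  | empty => rw [Finset.sum_empty, Finset.sum_empty, H.zero_right]
  | insert a s has ih => rw [Finset.sum_insert has, Finset.sum_insert has, H.add_right, ih]

theorem Herm.sum_left {ι : Type*} (s : Finset ι) (f : ι → V) (u : V) : ⟪∑ i ∈ s, f i, u⟫ = ∑ i ∈ s, ⟪f i, u⟫ := by
  classical
  induction s using Finset.induction_on with
  | empty => rw [Finset.sum_empty, Finset.sum_empty, H.zero_left]
  | insert a s has ih => rw [Finset.sum_insert has, Finset.sum_insert has, H.add_left, ih]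

/-- The orthogonal subspace. -/
def Herm.perp (U : Submodule K V) : Submodule K V where
  carrier := {v | ∀ u ∈ U, ⟪v, u⟫ = 0}
  add_mem' := fun ha hb u hu => by rw [H.add_left, ha u hu, hb u hu, add_zero]
  zero_mem' := fun u _ => H.zero_left u
  smul_mem' := fun c v hv u hu => by rw [H.smul_left, hv u hu, mul_zero]

/-- Two subspaces in duality. -/
structure Paired (U U' : Submodule K V) : Prop where
  left : ∀ x ∈ U, (∀ y ∈ U', ⟪x, y⟫ = 0) → x = 0
  right : ∀ y ∈ U', (∀ x ∈ U, ⟪y, x⟫ = 0) → y = 0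

theorem Paired.symm {U U' : Submodule K V} (h : Paired H U U') : Paired H U' U := ⟨h.right, h.left⟩

variable [Finite K] [FiniteDimensional K V]

/-- The functional of a vector. -/
def Herm.func (U : Submodule K V) (y : V) : Module.Dual K U where
  toFun x := ⟪(x : V), y⟫
  map_add' a b := H.add_left _ _ _
  map_smul' c a := H.smul_left _ _ _

omit [FiniteDimensional K V] in
theorem natCard_dual (U : Submodule K V) [FiniteDimensional K U] : Nat.card (Module.Dual K U) = Nat.card U := by
  rw [Module.natCard_eq_pow_finrank (K := K) (V := U), Module.natCard_eq_pow_finrank (K := K), Subspace.dual_finrank_eq]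

theorem Paired.func_bijective {U U' : Submodule K V} (h : Paired H U U') :
    Function.Bijective fun y : U' => H.func U (y : V) := by
  have hinj : ∀ {A B : Submodule K V}, Paired H A B → Function.Injective fun y : B => H.func A (y : V) := by
    intro A B hAB y z e
    refine Subtype.ext (sub_eq_zero.mp (hAB.right _ (sub_mem y.2 z.2) fun x hx => ?_))
    have := LinearMap.congr_fun e ⟨x, hx⟩
    rw [← H.symm x, H.sub_right, show ⟪x, (y : V)⟫ = ⟪x, (z : V)⟫ from this, sub_self, map_zero]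
  have : Finite V := Module.finite_of_finite K
  haveI : Finite (Module.Dual K U) := Module.finite_of_finite K
  haveI : Finite (Module.Dual K U') := Module.finite_of_finite K
  refine (hinj h).bijective_of_nat_card_le ?_
  rw [natCard_dual]
  exact (Nat.card_le_card_of_injective _ (hinj h.symm)).trans (natCard_dual U').le

theorem Paired.exists_rep {U U' : Submodule K V} (h : Paired H U U') (φ : Module.Dual K U) :
    ∃ y : U', ∀ x : U, φ x = ⟪(x : V), (y : V)⟫ := by
  obtain ⟨y, hy⟩ := (h.func_bijective H).2 φ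
  exact ⟨y, fun x => (LinearMap.congr_fun hy x).symm⟩

theorem Paired.exists_adjoint {U U' : Submodule K V} (h : Paired H U U') (f : Module.End K U) :
    ∃ g : Module.End K U', ∀ (x : U) (y : U'), ⟪(f x : V), (y : V)⟫ = ⟪(x : V), (g y : V)⟫ := by
  choose g hg using fun y : U' => h.exists_rep H ((H.func U (y : V)).comp f)
  have hu : ∀ {y z : U'}, (∀ x : U, ⟪(x : V), (y : V)⟫ = ⟪(x : V), (z : V)⟫) → y = z := fun e =>
    (h.func_bijective H).1 (LinearMap.ext e)
  refine ⟨{ toFun := g, map_add' := fun a b => hu fun x => ?_, map_smul' := fun c a => hu fun x => ?_ }, fun x y => hg y x⟩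
  · rw [Submodule.coe_add, H.add_right, ← hg, ← hg, ← hg]
    show ⟪(f x : V), ((a + b : U') : V)⟫ = ⟪(f x : V), (a : V)⟫ + ⟪(f x : V), (b : V)⟫
    rw [Submodule.coe_add, H.add_right]
  · rw [RingHom.id_apply, Submodule.coe_smul, H.smul_right, ← hg, ← hg]
    show ⟪(f x : V), ((c • a : U') : V)⟫ = θ c * ⟪(f x : V), (a : V)⟫
    rw [Submodule.coe_smul, H.smul_right]

theorem Paired.det_adjoint (hθ : ∀ a, θ (θ a) = a) {U U' : Submodule K V} (h : Paired H U U') {f : Module.End K U}
    {g : Module.End K U'} (hfg : ∀ (x : U) (y : U'), ⟪(f x : V), (y : V)⟫ = ⟪(x : V), (g y : V)⟫) :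
    LinearMap.det g = θ (LinearMap.det f) := by
  classical
  let b := Module.finBasis K U
  choose c hc using fun j => h.exists_rep H (b.coord j)
  have hbc : ∀ i j, ⟪(b i : V), (c j : V)⟫ = if i = j then 1 else 0 := fun i j => by
    rw [← hc j (b i), Module.Basis.coord_apply, Module.Basis.repr_self, Finsupp.single_apply]
  have hco : ∀ (a : Fin (Module.finrank K U) → K) i, ⟪(b i : V), ((∑ j, a j • c j : U') : V)⟫ = θ (a i) := fun a i => by
    rw [Submodule.coe_sum, H.sum_right]
    simp [Submodule.coe_smul, H.smul_right, hbc]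
  have hli : LinearIndependent K c := by
    rw [Fintype.linearIndependent_iff]
    intro a ha i
    have := hco a i
    rw [ha, Submodule.coe_zero, H.zero_right] at this
    exact θ.injective (by rw [← this, map_zero])
  have hcard : Nat.card U = Nat.card U' := by
    rw [← natCard_dual U]
    exact (Nat.card_congr (Equiv.ofBijective _ (h.func_bijective H))).symm
  have hdim : Module.finrank K U' = Module.finrank K U := by
    rw [Module.natCard_eq_pow_finrank (K := K) (V := U), Module.natCard_eq_pow_finrank (K := K) (V := U')] at hcard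
    exact (Nat.pow_right_injective Finite.one_lt_card hcard).symm
  let cb : Module.Basis (Fin (Module.finrank K U)) K U' := basisOfLinearIndependentOfCardEqFinrank' c hli (by
    rw [Fintype.card_fin, hdim])
  have hcb : ⇑cb = c := coe_basisOfLinearIndependentOfCardEqFinrank' c hli _
  rw [← LinearMap.det_toMatrix cb, ← LinearMap.det_toMatrix b, RingHom.map_det, ← Matrix.det_transpose]
  congr 1
  ext j i
  show LinearMap.toMatrix cb cb g i j = θ (LinearMap.toMatrix b b f j i)
  rw [LinearMap.toMatrix_apply, LinearMap.toMatrix_apply]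
  have h1 : ⟪(b i : V), (g (cb j) : V)⟫ = θ (cb.repr (g (cb j)) i) := by
    conv_lhs => rw [← cb.sum_repr (g (cb j))]
    rw [hcb, hco]
  have h2 : ⟪(f (b i) : V), (cb j : V)⟫ = b.repr (f (b i)) j := by
    rw [hcb, ← hc j, Module.Basis.coord_apply]
  rw [← hfg, h2] at h1
  rw [h1, hθ]

/-- The projection onto `U` along the pairing with `U'`. -/
theorem Paired.exists_proj {U U' : Submodule K V} (h : Paired H U U') :
    ∃ π : V →ₗ[K] U, (∀ v, ∀ y ∈ U', ⟪(π v : V), y⟫ = ⟪v, y⟫) ∧ ∀ x : U, π (x : V) = x := by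
  have hψ : ∀ v : V, ∃ x : U, ∀ y ∈ U', ⟪(x : V), y⟫ = ⟪v, y⟫ := fun v => by
    obtain ⟨x, hx⟩ := (h.symm H).exists_rep H (H.func U' v)
    exact ⟨x, fun y hy => by rw [← H.symm, ← hx ⟨y, hy⟩]; exact H.symm _ _⟩
  choose π hπ using hψ
  have hu : ∀ {x z : U}, (∀ y ∈ U', ⟪(x : V), y⟫ = ⟪(z : V), y⟫) → x = z := fun {x z} e =>
    Subtype.ext (sub_eq_zero.mp (h.left _ (sub_mem x.2 z.2) fun y hy => by rw [H.sub_left, e y hy, sub_self]))
  refine ⟨{ toFun := π, map_add' := fun a b => hu fun y hy => ?_, map_smul' := fun c a => hu fun y hy => ?_ },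
    hπ, fun x => hu fun y hy => hπ _ y hy⟩
  · rw [hπ _ y hy, Submodule.coe_add, H.add_left, H.add_left, hπ _ y hy, hπ _ y hy]
  · rw [hπ _ y hy, RingHom.id_apply, Submodule.coe_smul, H.smul_left, H.smul_left, hπ _ y hy]

theorem commute_adjoin' {U : Type*} [AddCommGroup U] [Module K U] {f g h : Module.End K U}
    (hg : g ∈ Algebra.adjoin K {f}) (hh : h ∈ Algebra.adjoin K {f}) : Commute g h :=
  Algebra.commute_of_mem_adjoin_of_forall_mem_commute hh fun b hb => by
    rw [Set.mem_singleton_iff.mp hb]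
    exact (Algebra.commute_of_mem_adjoin_of_forall_mem_commute hg fun b hb => by
      rw [Set.mem_singleton_iff.mp hb]; exact Commute.refl f).symm

theorem exists_hilbert90 (hne : θ ≠ RingHom.id K) (hθ : ∀ a, θ (θ a) = a) {d : K} (hd : θ d * d = 1) :
    ∃ c : K, c ≠ 0 ∧ d * θ c = c := by
  by_cases h : ∃ z, z + d * θ z ≠ 0
  · obtain ⟨z, hz⟩ := h
    refine ⟨z + d * θ z, hz, ?_⟩
    rw [map_add, map_mul, hθ]
    linear_combination z * hd
  · push Not at h
    have h1 := h 1
    rw [map_one, mul_one] at h1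
    obtain ⟨z, hz⟩ : ∃ z, θ z ≠ z := by
      by_contra hh
      push Not at hh
      exact hne (RingHom.ext hh)
    refine ⟨z - θ z, sub_ne_zero.mpr (Ne.symm hz), ?_⟩
    rw [map_sub, hθ]
    linear_combination (θ z - z) * h1

/-- Every norm-one scalar is the determinant of an isometry commuting with a semisimple isometry. -/
theorem exists_centraliser_det (hne : θ ≠ RingHom.id K) (hθ : ∀ a, θ (θ a) = a) [Nontrivial V] {s : V ≃ₗ[K] V}
    (hs : ∀ u v, ⟪s u, s v⟫ = ⟪u, v⟫) {r : ℕ} (hr : (r : K) ≠ 0) (hsr : ∀ v, ((s : V →ₗ[K] V) ^ r) v = v)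
    {d : K} (hd : θ d * d = 1) :
    ∃ u : V →ₗ[K] V, (∀ v w, ⟪u v, u w⟫ = ⟪v, w⟫) ∧ (∀ v, u (s v) = s (u v)) ∧ LinearMap.det u = d := by
  classical
  have : Finite V := Module.finite_of_finite K
  have hr0 : r ≠ 0 := fun h => hr (by rw [h, Nat.cast_zero])
  obtain ⟨c, hc0, hc⟩ := exists_hilbert90 hne hθ hd
  let IsInv : Submodule K V → Prop := fun p => ∀ v ∈ p, s v ∈ p
  let IsMin : Submodule K V → Prop := fun U => IsInv U ∧ U ≠ ⊥ ∧ ∀ p, p ≤ U → IsInv p → p = ⊥ ∨ p = U
  have hex : ∀ W : Submodule K V, IsInv W → W ≠ ⊥ → ∃ U, U ≤ W ∧ IsMin U := by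
    intro W hW hW0
    have hne : ∃ n, ∃ p, p ≤ W ∧ IsInv p ∧ p ≠ ⊥ ∧ Module.finrank K p = n := ⟨_, W, le_rfl, hW, hW0, rfl⟩
    obtain ⟨U, hUW, hU, hU0, hUn⟩ := Nat.find_spec hne
    refine ⟨U, hUW, hU, hU0, fun p hp hpi => ?_⟩
    by_cases hp0 : p = ⊥
    · exact Or.inl hp0
    · exact Or.inr (Submodule.eq_of_le_of_finrank_le hp (hUn ▸ Nat.find_min' hne ⟨p, hp.trans hUW, hpi, hp0, rfl⟩))
  have hsurjW : ∀ W, IsInv W → ∀ w ∈ W, ∃ w₀ ∈ W, s w₀ = w := fun W hW w hw => by
    obtain ⟨w₀, hw₀⟩ := (Finite.injective_iff_surjective.mp (fun (a b : W) (h : (⟨s a, hW _ a.2⟩ : W) = ⟨s b, hW _ b.2⟩) =>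
      Subtype.ext (s.injective (congrArg Subtype.val h)))) ⟨w, hw⟩
    exact ⟨w₀, w₀.2, congrArg Subtype.val hw₀⟩
  have hperp : ∀ W, IsInv W → IsInv (H.perp W) := fun W hW v hv w hw => by
    obtain ⟨w₀, hw₀m, rfl⟩ := hsurjW W hW w hw
    rw [hs]; exact hv w₀ hw₀m
  -- the projection commutes with `s`
  have hπs : ∀ {U U' : Submodule K V}, Paired H U U' → ∀ (hU : IsInv U), IsInv U' → ∀ (π : V →ₗ[K] U),
      (∀ v, ∀ y ∈ U', ⟪(π v : V), y⟫ = ⟪v, y⟫) → ∀ v, π (s v) = ⟨s (π v : V), hU _ (π v).2⟩ := by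
    intro U U' hp hU hU' π hπ v
    refine Subtype.ext (sub_eq_zero.mp (hp.left _ (sub_mem (π _).2 (hU _ (π v).2)) fun y hy => ?_))
    obtain ⟨y₀, hy₀, rfl⟩ := hsurjW U' hU' y hy
    rw [H.sub_left, hπ _ _ hy, hs, hs, hπ _ _ hy₀, sub_self]
  -- the field generated by an irreducible restriction
  have hfield : ∀ U, IsMin U → ∀ hU : IsInv U,
      ∃ a : Module.End K U, a ∈ Algebra.adjoin K {(s : V →ₗ[K] V).restrict hU} ∧ LinearMap.det a = c ∧
        ∀ g ∈ Algebra.adjoin K {(s : V →ₗ[K] V).restrict hU}, g ≠ 0 → Function.Injective g := by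
    intro U hmin hU
    obtain ⟨f, hf⟩ : ∃ f : Module.End K U, f = (s : V →ₗ[K] V).restrict hU := ⟨_, rfl⟩
    rw [← hf]
    have hfv : ∀ x : U, (f x : V) = s x := fun x => by rw [hf]; rfl
    have hirr : ∀ g ∈ Algebra.adjoin K {f}, g ≠ 0 → Function.Injective g := fun g hg hg0 => by
      rw [← LinearMap.ker_eq_bot]
      rcases hmin.2.2 ((LinearMap.ker g).map U.subtype) (Submodule.map_subtype_le U _) (by
        rintro v ⟨x, hx, rfl⟩
        refine ⟨f x, ?_, hfv x⟩
        rw [SetLike.mem_coe, LinearMap.mem_ker] at hx ⊢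
        rw [← Module.End.mul_apply, (commute_adjoin' hg (Algebra.self_mem_adjoin_singleton K f)).eq,
          Module.End.mul_apply, hx, map_zero]) with h | h
      · exact Submodule.map_injective_of_injective U.subtype_injective (by rw [h, Submodule.map_bot])
      · exfalso
        refine hg0 (LinearMap.ker_eq_top.mp (Submodule.map_injective_of_injective U.subtype_injective ?_))
        rw [h, Submodule.map_top, Submodule.range_subtype]
    obtain ⟨x₀, hx₀⟩ : ∃ x : U, x ≠ 0 := by
      obtain ⟨x, hx, hx0⟩ := U.ne_bot_iff.mp hmin.2.1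
      exact ⟨⟨x, hx⟩, fun h => hx0 (congrArg Subtype.val h)⟩
    letI : CommRing (Algebra.adjoin K {f}) := { (inferInstance : Ring (Algebra.adjoin K {f})) with
      mul_comm := fun a b => Subtype.ext (commute_adjoin' a.2 b.2).eq }
    haveI : Finite (Module.End K U) := Module.finite_of_finite K
    haveI : Nontrivial (Algebra.adjoin K {f}) :=
      ⟨⟨1, 0, fun h => hx₀ (congrArg (fun g : Algebra.adjoin K {f} => (g : Module.End K U) x₀) h)⟩⟩
    haveI : NoZeroDivisors (Algebra.adjoin K {f}) := ⟨fun {a b} h => by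
      rw [or_iff_not_imp_left]
      intro ha
      refine Subtype.ext (LinearMap.ext fun x => ?_)
      refine hirr _ a.2 (fun e => ha (Subtype.ext e)) ?_
      have := congrArg (fun g : Algebra.adjoin K {f} => (g : Module.End K U) x) h
      simpa using this⟩
    haveI : IsDomain (Algebra.adjoin K {f}) := NoZeroDivisors.to_isDomain _
    letI : Field (Algebra.adjoin K {f}) := (Finite.isField_of_domain _).toField
    let ev : Algebra.adjoin K {f} →ₗ[K] U :=
      (LinearMap.applyₗ (R := K) x₀).comp (Algebra.adjoin K {f}).val.toLinearMap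
    have hev : ∀ g, ev g = (g : Module.End K U) x₀ := fun g => rfl
    have hinj : Function.Injective ev := (injective_iff_map_eq_zero _).mpr fun g hg => by
      by_contra hg0
      exact hx₀ (hirr _ g.2 (fun e => hg0 (Subtype.ext e)) (by rw [map_zero]; exact hg))
    have hsurj : Function.Surjective ev := by
      rw [← LinearMap.range_eq_top]
      rcases hmin.2.2 ((LinearMap.range ev).map U.subtype) (Submodule.map_subtype_le U _) (by
        rintro v ⟨x, ⟨g, rfl⟩, rfl⟩
        exact ⟨f (ev g), ⟨⟨f, Algebra.self_mem_adjoin_singleton K f⟩ * g, rfl⟩, hfv _⟩) with h | h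
      · exfalso
        refine hx₀ (U.subtype_injective ?_)
        have hm : (U.subtype x₀) ∈ (LinearMap.range ev).map U.subtype := ⟨x₀, ⟨1, rfl⟩, rfl⟩
        rw [h, Submodule.mem_bot] at hm
        rw [hm, map_zero]
      · exact Submodule.map_injective_of_injective U.subtype_injective (by rw [h, Submodule.map_top, Submodule.range_subtype])
    let e := LinearEquiv.ofBijective ev ⟨hinj, hsurj⟩
    haveI : FiniteDimensional K (Algebra.adjoin K {f}) := Module.Finite.equiv e.symm
    obtain ⟨a, ha⟩ := FiniteField.norm_surjective K (Algebra.adjoin K {f}) c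
    refine ⟨a, a.2, ?_, hirr⟩
    rw [← ha, Algebra.norm_apply, ← LinearMap.det_conj (Algebra.lmul K (Algebra.adjoin K {f}) a) e]
    congr 1
    refine LinearMap.ext fun x => ?_
    obtain ⟨g, rfl⟩ := e.surjective x
    show (a : Module.End K U) (e g) = e ((Algebra.lmul K (Algebra.adjoin K {f}) a) (e.symm (e g)))
    rw [e.symm_apply_apply]
    rfl
  have hpow : ∀ {U : Submodule K V} (hU : IsInv U) (i : ℕ) (y : U),
      ((((s : V →ₗ[K] V).restrict hU) ^ i) y : V) = ((s : V →ₗ[K] V) ^ i) y := fun hU i => by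
    induction i with
    | zero => exact fun y => rfl
    | succ i ih => intro y; rw [pow_succ, pow_succ, Module.End.mul_apply, Module.End.mul_apply, ih]; rfl
  by_cases hcase : ∃ U, IsMin U ∧ ∃ x ∈ U, ∃ y ∈ U, ⟪x, y⟫ ≠ 0
  · obtain ⟨U, hmin, z, hz, z', hz', hzz⟩ := hcase
    have hU : IsInv U := hmin.1
    have hp : Paired H U U := by
      have h0 : ∀ x ∈ U, (∀ y ∈ U, ⟪x, y⟫ = 0) → x = 0 := fun x hx h => by
        rcases hmin.2.2 (U ⊓ H.perp U) inf_le_left (fun v hv => ⟨hU v hv.1, hperp U hU v hv.2⟩) with e | e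
        · exact (Submodule.mem_bot K).mp (e ▸ ⟨hx, h⟩)
        · exfalso
          have : z ∈ U ⊓ H.perp U := by rw [e]; exact hz
          exact hzz (this.2 z' hz')
      exact ⟨h0, h0⟩
    obtain ⟨x, hxm, hxd, hirr⟩ := hfield U hmin hU
    have hxc : ∀ g ∈ Algebra.adjoin K {(s : V →ₗ[K] V).restrict hU}, Commute g x := fun g hg => commute_adjoin' hg hxm
    -- the adjoint of `x` lies in the same algebra
    have hadj : ∀ g ∈ Algebra.adjoin K {(s : V →ₗ[K] V).restrict hU}, ∃ g' ∈ Algebra.adjoin K {(s : V →ₗ[K] V).restrict hU},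
        ∀ a b : U, ⟪(g a : V), (b : V)⟫ = ⟪(a : V), (g' b : V)⟫ := by
      intro g hg
      induction hg using Algebra.adjoin_induction with
      | mem k hk =>
        rw [Set.mem_singleton_iff.mp hk]
        refine ⟨_, pow_mem (Algebra.self_mem_adjoin_singleton K _) (r - 1), fun a b => ?_⟩
        have e : (b : V) = s ((((s : V →ₗ[K] V).restrict hU ^ (r - 1)) b : U) : V) := by
          rw [hpow hU]
          have h2 := hsr (b : V)
          rw [show r = (r - 1) + 1 by omega, pow_succ', Module.End.mul_apply] at h2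
          exact h2.symm
        conv_lhs => rw [e]
        exact hs _ _
      | algebraMap k =>
        refine ⟨algebraMap K _ (θ k), Subalgebra.algebraMap_mem _ _, fun a b => ?_⟩
        simp [Module.algebraMap_end_apply, H.smul_left, H.smul_right, hθ]
      | add g g' _ _ hg hg' =>
        obtain ⟨k, hk, hk'⟩ := hg
        obtain ⟨l, hl, hl'⟩ := hg'
        exact ⟨k + l, add_mem hk hl, fun a b => by
          simp only [LinearMap.add_apply, Submodule.coe_add, H.add_left, H.add_right]; rw [hk', hl']⟩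
      | mul g g' _ _ hg hg' =>
        obtain ⟨k, hk, hk'⟩ := hg
        obtain ⟨l, hl, hl'⟩ := hg'
        exact ⟨l * k, mul_mem hl hk, fun a b => by
          simp only [Module.End.mul_apply]; exact (hk' _ b).trans (hl' a _)⟩
    obtain ⟨x', hx'm, hx'⟩ := hadj x hxm
    have hx'd : LinearMap.det x' = θ c := by rw [hp.det_adjoint H hθ hx', hxd]
    have hx'u : LinearMap.det x' ≠ 0 := by rw [hx'd]; exact fun e => hc0 (θ.injective (by rw [e, map_zero]))
    let x'e : U ≃ₗ[K] U := LinearEquiv.ofBijective x'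
      (Finite.injective_iff_bijective.mp (hirr x' hx'm fun e => hx'u (by
        rw [e]
        haveI : Nontrivial U := ⟨⟨⟨z, hz⟩, 0, fun h => hzz (by
          rw [show z = 0 from congrArg Subtype.val h, H.zero_left])⟩⟩
        exact LinearMap.det_zero'' )))
    have hxe : ∀ b, x' (x'e.symm b) = b := fun b => x'e.apply_symm_apply b
    obtain ⟨a, ha⟩ : ∃ a : Module.End K U, a = x * (x'e.symm : U →ₗ[K] U) := ⟨_, rfl⟩
    have hxx' : ∀ b, x (x' b) = x' (x b) := fun b => by
      rw [← Module.End.mul_apply, ← Module.End.mul_apply, ← (hxc x' hx'm).eq]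
    have hax : ∀ b, a (x' b) = x b := fun b => by
      rw [ha, Module.End.mul_apply]
      exact congrArg x (x'e.symm_apply_apply b)
    have haiso : ∀ p q : U, ⟪(a p : V), (a q : V)⟫ = ⟪(p : V), (q : V)⟫ := by
      intro p q
      rw [← hxe p, ← hxe q, hax, hax, hx', ← hxx']
      exact (H.symm _ _).symm.trans ((congrArg θ (hx' _ _)).trans (H.symm _ _))
    have hadet : LinearMap.det a = d := by
      have h1 : LinearMap.det a * LinearMap.det x' = LinearMap.det x := by
        rw [← map_mul]; exact congrArg LinearMap.det (LinearMap.ext hax)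
      rw [hxd, hx'd] at h1
      refine mul_right_cancel₀ (b := θ c) (fun e => hc0 (θ.injective (by rw [e, map_zero]))) ?_
      rw [h1, hc]
    obtain ⟨π, hπ, hπx⟩ := hp.exists_proj H
    refine ⟨LinearMap.id + U.subtype ∘ₗ ((a - 1) ∘ₗ π), fun v w => ?_, fun v => ?_, ?_⟩
    · simp only [LinearMap.add_apply, LinearMap.id_apply, LinearMap.comp_apply, Submodule.subtype_apply,
        LinearMap.sub_apply, Module.End.one_apply, Submodule.coe_sub]
      have e1 : ⟪v, ((a (π w) : V) - (π w : V))⟫ = ⟪(π v : V), ((a (π w) : V) - (π w : V))⟫ :=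
        (hπ v _ (sub_mem (a (π w)).2 (π w).2)).symm
      have e2 : ⟪((a (π v) : V) - (π v : V)), w⟫ = ⟪((a (π v) : V) - (π v : V)), (π w : V)⟫ := by
        rw [← H.symm, ← H.symm (π w : V), hπ w _ (sub_mem (a (π v)).2 (π v).2)]
      rw [H.add_left, H.add_right, H.add_right, e1, e2]
      simp only [H.sub_left, H.sub_right, haiso]
      ring
    · simp only [LinearMap.add_apply, LinearMap.id_apply, LinearMap.comp_apply, Submodule.subtype_apply,
        LinearMap.sub_apply, Module.End.one_apply, Submodule.coe_sub, map_add, map_sub]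
      congr 1
      rw [hπs hp hU hU π hπ v]
      have hga : ∀ b : U, a ⟨s b, hU _ b.2⟩ = ⟨s (a b : V), hU _ (a b).2⟩ := fun b => by
        obtain ⟨b', rfl⟩ : ∃ b', x' b' = b := ⟨_, hxe b⟩
        have e' : (⟨s (x' b' : V), hU _ (x' b').2⟩ : U) = x' (((s : V →ₗ[K] V).restrict hU) b') := by
          rw [← Module.End.mul_apply, (commute_adjoin' hx'm (Algebra.self_mem_adjoin_singleton K _)).eq]
          rfl
        rw [e', hax, hax, ← Module.End.mul_apply, (commute_adjoin' hxm (Algebra.self_mem_adjoin_singleton K _)).eq]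
        rfl
      rw [hga]
    · rw [det_one_add_comp_comm, LinearMap.comp_assoc,
        show π ∘ₗ U.subtype = LinearMap.id from LinearMap.ext hπx, LinearMap.comp_id, ← Module.End.one_eq_id,
        add_sub_cancel, hadet]
  · push Not at hcase
    obtain ⟨U, -, hmin⟩ := hex ⊤ (fun v _ => Submodule.mem_top) top_ne_bot
    have hU : IsInv U := hmin.1
    have hS : Module.End.IsSemisimple (s : V →ₗ[K] V) := by
      refine Module.End.isSemisimple_of_squarefree_aeval_eq_zero (p := Polynomial.X ^ r - Polynomial.C (1 : K))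
        (Polynomial.separable_X_pow_sub_C 1 hr one_ne_zero).squarefree ?_
      ext v
      simp [hsr]
    obtain ⟨⟨U', hU'⟩, hcompl⟩ := Module.End.isSemisimple_iff'.mp hS ⟨H.perp U, fun v hv => hperp U hU v hv⟩
    have hU'i : IsInv U' := fun v hv => hU' hv
    have hdisj : H.perp U ⊓ U' = ⊥ := congrArg Subtype.val hcompl.inf_eq_bot
    have hsup : H.perp U ⊔ U' = ⊤ := congrArg Subtype.val hcompl.sup_eq_top
    have hright : ∀ y ∈ U', (∀ x ∈ U, ⟪y, x⟫ = 0) → y = 0 := fun y hy h =>
      (Submodule.mem_bot K).mp (hdisj ▸ ⟨h, hy⟩)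
    have hp : Paired H U U' := by
      refine ⟨fun x hx h => H.nondeg x fun v => ?_, hright⟩
      obtain ⟨p, hp, y, hy, rfl⟩ := Submodule.mem_sup.mp (hsup ▸ Submodule.mem_top : v ∈ H.perp U ⊔ U')
      rw [H.add_right, h y hy, ← H.symm p x, hp x hx, map_zero, add_zero]
    -- `U'` is totally isotropic
    have hsing : ∀ x ∈ U', ∀ y ∈ U', ⟪x, y⟫ = 0 := by
      have hU'0 : U' ≠ ⊥ := fun h => by
        obtain ⟨x, hx, hx0⟩ := U.ne_bot_iff.mp hmin.2.1
        exact hx0 (hp.left x hx fun y hy => by rw [h, Submodule.mem_bot] at hy; rw [hy, H.zero_right])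
      obtain ⟨W, hWU', hW⟩ := hex U' hU'i hU'0
      have hUW : Paired H U W := by
        refine ⟨fun x hx h => ?_, fun y hy => hright y (hWU' hy)⟩
        rcases hmin.2.2 (U ⊓ H.perp W) inf_le_left (fun v hv => ⟨hU v hv.1, hperp W hW.1 v hv.2⟩) with e | e
        · exact (Submodule.mem_bot K).mp (e ▸ ⟨hx, h⟩)
        · exfalso
          obtain ⟨w, hw, hw0⟩ := W.ne_bot_iff.mp hW.2.1
          refine hw0 (hright w (hWU' hw) fun u hu => ?_)
          have : u ∈ U ⊓ H.perp W := by rw [e]; exact hu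
          rw [← H.symm, this.2 w hw, map_zero]
      have hWeq : W = U' := by
        refine Submodule.eq_of_le_of_finrank_le hWU' (le_of_eq ?_)
        have h1 : Nat.card U' = Nat.card W := (Nat.card_congr (Equiv.ofBijective _ (hp.func_bijective H))).trans
          (Nat.card_congr (Equiv.ofBijective _ (hUW.func_bijective H))).symm
        rw [Module.natCard_eq_pow_finrank (K := K) (V := U'), Module.natCard_eq_pow_finrank (K := K) (V := W)] at h1
        exact Nat.pow_right_injective Finite.one_lt_card h1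
      rw [← hWeq]
      exact hcase W hW
    obtain ⟨x, hxm, hxd, hirr⟩ := hfield U hmin hU
    have hxu : LinearMap.det x ≠ 0 := by rw [hxd]; exact hc0
    obtain ⟨xi, hxi⟩ : ∃ xi : Module.End K U, x * xi = 1 ∧ xi * x = 1 := by
      have hu : IsUnit x := (LinearMap.isUnit_iff_isUnit_det x).mpr hxu.isUnit
      exact ⟨_, hu.mul_val_inv, hu.val_inv_mul⟩
    obtain ⟨g, hg⟩ := hp.exists_adjoint H xi
    have hgd : LinearMap.det g = (θ c)⁻¹ := by
      rw [hp.det_adjoint H hθ hg, ← map_inv₀]
      congr 1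
      refine eq_inv_of_mul_eq_one_left ?_
      rw [← hxd, ← map_mul, hxi.2, LinearMap.det.map_one]
    have hxg : ∀ (p : U) (q : U'), ⟪(x p : V), (g q : V)⟫ = ⟪(p : V), (q : V)⟫ := fun p q => by
      rw [← hg, ← Module.End.mul_apply, hxi.2]
      rfl
    have hgx : ∀ (q : U') (p : U), ⟪(g q : V), (x p : V)⟫ = ⟪(q : V), (p : V)⟫ := fun q p => by
      rw [← H.symm, hxg, H.symm]
    obtain ⟨π, hπ, hπx⟩ := hp.exists_proj H
    obtain ⟨π', hπ', hπx'⟩ := (hp.symm H).exists_proj H
    have hcross : ∀ y : U', π (y : V) = 0 := fun y => Subtype.ext (hp.left _ (π _).2 fun y' hy' => by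
      rw [hπ _ y' hy', hsing _ y.2 _ hy'])
    refine ⟨(LinearMap.id + U.subtype ∘ₗ ((x - 1) ∘ₗ π)) * (LinearMap.id + U'.subtype ∘ₗ ((g - 1) ∘ₗ π')),
      fun v w => ?_, fun v => ?_, ?_⟩
    · simp only [Module.End.mul_apply, LinearMap.add_apply, LinearMap.id_apply, LinearMap.comp_apply,
        Submodule.subtype_apply, LinearMap.sub_apply, Module.End.one_apply, Submodule.coe_sub, map_add, map_sub, hcross,
        sub_zero, map_zero, Submodule.coe_zero, add_zero]
      have el1 : ∀ (v : V) (q : U'), ⟪v, (q : V)⟫ = ⟪(π v : V), (q : V)⟫ := fun v q => (hπ v _ q.2).symm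
      have el2 : ∀ (v : V) (p : U), ⟪v, (p : V)⟫ = ⟪(π' v : V), (p : V)⟫ := fun v p => (hπ' v _ p.2).symm
      have er1 : ∀ (v : V) (q : U'), ⟪(q : V), v⟫ = ⟪(q : V), (π v : V)⟫ := fun v q => by
        rw [← H.symm v, el1, H.symm]
      have er2 : ∀ (v : V) (p : U), ⟪(p : V), v⟫ = ⟪(p : V), (π' v : V)⟫ := fun v p => by
        rw [← H.symm v, el2, H.symm]
      simp only [H.add_left, H.add_right, H.sub_left, H.sub_right, hcase U hmin _ (x (π v)).2 _ (x (π w)).2,
        hcase U hmin _ (x (π v)).2 _ (π w).2, hcase U hmin _ (π v).2 _ (x (π w)).2, hcase U hmin _ (π v).2 _ (π w).2,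
        hsing _ (g (π' v)).2 _ (g (π' w)).2, hsing _ (g (π' v)).2 _ (π' w).2, hsing _ (π' v).2 _ (g (π' w)).2,
        hsing _ (π' v).2 _ (π' w).2, hxg, hgx, el1 v, el2 v, er1 w, er2 w]
      ring
    · have h1 : ∀ b : U, x ⟨s b, hU _ b.2⟩ = ⟨s (x b : V), hU _ (x b).2⟩ := fun b => by
        have := LinearMap.congr_fun (commute_adjoin' hxm (Algebra.self_mem_adjoin_singleton K _)).eq b
        exact this
      have h1' : ∀ b : U, xi ⟨s b, hU _ b.2⟩ = ⟨s (xi b : V), hU _ (xi b).2⟩ := fun b => by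
        have hxb : ∀ t, x (xi t) = t := fun t => by rw [← Module.End.mul_apply, hxi.1]; rfl
        have hbx : ∀ t, xi (x t) = t := fun t => by rw [← Module.End.mul_apply, hxi.2]; rfl
        rw [← hbx ⟨s (xi b : V), hU _ (xi b).2⟩, h1]
        congr 1
        exact Subtype.ext (by rw [hxb])
      have h2 : ∀ b : U', g ⟨s b, hU'i _ b.2⟩ = ⟨s (g b : V), hU'i _ (g b).2⟩ := fun b => by
        refine Subtype.ext (sub_eq_zero.mp (hright _ (sub_mem (g _).2 (hU'i _ (g b).2)) fun p hp' => ?_))
        obtain ⟨p₀, hp₀, rfl⟩ := hsurjW U hU p hp'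
        have e := congrArg Subtype.val (h1' ⟨p₀, hp₀⟩)
        have e1 : ⟪s p₀, (g ⟨s b, hU'i _ b.2⟩ : V)⟫ = ⟪(xi ⟨s p₀, hp'⟩ : V), s (b : V)⟫ := (hg ⟨s p₀, hp'⟩ ⟨s b, hU'i _ b.2⟩).symm
        have e2 : ⟪p₀, (g b : V)⟫ = ⟪(xi ⟨p₀, hp₀⟩ : V), (b : V)⟫ := (hg ⟨p₀, hp₀⟩ b).symm
        rw [← H.symm, H.sub_right, hs, e1, e2, e, hs, sub_self, map_zero]
      simp only [Module.End.mul_apply, LinearMap.add_apply, LinearMap.id_apply, LinearMap.comp_apply,
        Submodule.subtype_apply, LinearMap.sub_apply, Module.End.one_apply, Submodule.coe_sub, map_add, map_sub, hcross,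
        sub_zero, map_zero, Submodule.coe_zero, add_zero]
      rw [hπs hp hU hU'i π hπ v, hπs (hp.symm H) hU'i hU π' hπ' v, h1, h2]
    · rw [map_mul, det_one_add_comp_comm U.subtype, det_one_add_comp_comm U'.subtype, LinearMap.comp_assoc, LinearMap.comp_assoc,
        show π ∘ₗ U.subtype = LinearMap.id from LinearMap.ext hπx,
        show π' ∘ₗ U'.subtype = LinearMap.id from LinearMap.ext hπx', LinearMap.comp_id, LinearMap.comp_id,
        ← Module.End.one_eq_id, ← Module.End.one_eq_id, add_sub_cancel, add_sub_cancel, hxd, hgd, mul_inv_eq_iff_eq_mul₀]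
      · exact hc.symm
      · exact fun e => hc0 (θ.injective (by rw [e, map_zero]))

end CfsgLib.UnitarySemiCount
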