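import Mathlib

/-!
Fixed points of a semilinear involution on coefficient vectors.
-/

set_option autoImplicit false

namespace CfsgLib.UnitarySemiCount

variable {K : Type*} [Field K] [Fintype K]

theorem card_twisted_fixed {q : ℕ} (hK : Fintype.card K = q ^ 2) (θ : K →+* K) (hθ : ∀ a, θ (θ a) = a)
    (hne : θ ≠ RingHom.id K) {ι : Type*} [Fintype ι] (π : ι → ι) (hπ : ∀ i, π (π i) = i) {s : K}
    (hs : θ s * s = 1) : Nat.card {f : ι → K // ∀ i, f i = s * θ (f (π i))} = q ^ Fintype.card ι := by
  obtain ⟨c, hc⟩ : ∃ c, θ c ≠ c := by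
    by_contra h
    push Not at h
    exact hne (RingHom.ext h)
  have hc' : c - θ c ≠ 0 := sub_ne_zero.mpr hc.symm
  have hss : ∀ y : K, s * (θ s * y) = y := fun y => by rw [← mul_assoc, mul_comm s, hs, one_mul]
  let S := {f : ι → K // ∀ i, f i = s * θ (f (π i))}
  have hbij : Function.Bijective fun p : S × S => fun i => p.1.1 i + c * p.2.1 i := by
    constructor
    · rintro ⟨⟨a, ha⟩, ⟨b, hb⟩⟩ ⟨⟨a', ha'⟩, ⟨b', hb'⟩⟩ h
      have h' : ∀ i, a i + c * b i = a' i + c * b' i := congrFun h
      have key : ∀ i, b i = b' i := fun i => by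
        have e := congrArg (fun y => s * θ y) (h' (π i))
        simp only [map_add, map_mul, mul_add] at e
        rw [← ha i, ← ha' i, show s * (θ c * θ (b (π i))) = θ c * b i by rw [hb i]; ring,
          show s * (θ c * θ (b' (π i))) = θ c * b' i by rw [hb' i]; ring] at e
        exact mul_left_cancel₀ hc' (by linear_combination (h' i) - e)
      refine Prod.ext (Subtype.ext (funext fun i => ?_)) (Subtype.ext (funext key))
      have := h' i
      rw [key i] at this
      exact add_right_cancel this
    · intro x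
      obtain ⟨b, hb⟩ : ∃ b : ι → K, b = fun i => (x i - s * θ (x (π i))) / (c - θ c) := ⟨_, rfl⟩
      have hbf : ∀ i, b i = s * θ (b (π i)) := fun i => by
        simp only [hb, map_div₀, map_sub, map_mul, hθ, hπ]
        rw [show θ c - c = -(c - θ c) by ring, div_neg, mul_neg, mul_div_assoc', mul_sub, hss, ← neg_div, neg_sub]
      refine ⟨(⟨fun i => x i - c * b i, fun i => ?_⟩, ⟨b, hbf⟩), funext fun i => by simp⟩
      have h1 : s * (θ c * θ (b (π i))) = θ c * b i := by rw [hbf i]; ring
      show x i - c * b i = s * θ (x (π i) - c * b (π i))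
      rw [map_sub, map_mul, mul_sub, h1]
      have h2 : (c - θ c) * b i = x i - s * θ (x (π i)) := by
        rw [hb]
        exact mul_div_cancel₀ _ hc'
      linear_combination -h2
  have h := Nat.card_eq_of_bijective _ hbij
  rw [Nat.card_prod, Nat.card_fun, Nat.card_eq_fintype_card (α := K), hK, Nat.card_eq_fintype_card (α := ι)] at h
  refine Nat.pow_left_injective two_ne_zero ?_
  show _ ^ 2 = _ ^ 2
  rw [sq, h, ← pow_mul, ← pow_mul, mul_comm 2]

end CfsgLib.UnitarySemiCount
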